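import Cfsg.Agent.H214.OT.Env

/-!
# S2539, 4.4: elimination of `PSL₃(4)`, `M₁₁` (`l = 3`) and the Tits group (`l = 5`)

* `index_modEq` : the number of Sylow subgroups is `1` modulo `|P|` if `P` is a TI subgroup;
* `card_T_dvd` : six roots: `|T|` divides `(|K| - 1)²`;
* `tits_false` : the Tits group with `|T|` dividing 225 and `|M : T|` dividing 12.
-/

set_option autoImplicit false

open Subgroup
open scoped Pointwise

namespace Cfsg.Agent.H68.OT

open Cfsg.Agent.H712.OT Cfsg.Agent.H214.OT

universe u v w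

section Group

variable {G : Type*} [Group G] [Finite G] {p : ℕ} [hp : Fact p.Prime]

omit [Finite G] hp in
/-- a `p`-element normalizing the Sylow subgroup lies in it -/
theorem mem_of_normalizes (P : Sylow p G) {a : G} (ha : IsPGroup p (zpowers a))
    (h : a ∈ normalizer ((P : Subgroup G) : Set G)) : a ∈ (P : Subgroup G) := by
  have h1 := IsPGroup.inf_normalizer_sylow ha P
  exact (h1.le ⟨mem_zpowers a, h⟩).2

omit hp in
/-- the number of Sylow subgroups -/
theorem index_modEq (P : Sylow p G) (hTI : ∀ g : G, g ∉ normalizer ((P : Subgroup G) : Set G) →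
      (P : Subgroup G) ⊓ (MulAut.conj g • (P : Subgroup G)) = ⊥) :
    (normalizer ((P : Subgroup G) : Set G)).index ≡ 1 [MOD Nat.card P] := by
  classical
  set N := normalizer ((P : Subgroup G) : Set G) with hN
  have := Fintype.ofFinite G
  have := Fintype.ofFinite (G ⧸ N)
  have := Fintype.ofFinite (P : Subgroup G)
  have := Fintype.ofFinite (MulAction.orbitRel.Quotient (P : Subgroup G) (G ⧸ N))
  have : ∀ a : (P : Subgroup G), Fintype (MulAction.fixedBy (G ⧸ N) a) :=
    fun a => Fintype.ofFinite _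
  have h' := MulAction.sum_card_fixedBy_eq_card_orbits_mul_card_group (P : Subgroup G) (G ⧸ N)
  rw [← Finset.add_sum_erase Finset.univ _ (Finset.mem_univ (1 : (P : Subgroup G)))] at h'
  have h1 : Fintype.card (MulAction.fixedBy (G ⧸ N) (1 : (P : Subgroup G))) = N.index := by
    rw [← Nat.card_eq_fintype_card, Subgroup.index]
    refine Nat.card_congr ((Equiv.setCongr ?_).trans (Equiv.Set.univ _))
    ext x
    simp
  have h2 : ∀ a ∈ Finset.univ.erase (1 : (P : Subgroup G)), Fintype.card (MulAction.fixedBy (G ⧸ N) a) = 1 := by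
    intro a ha
    have ha1 : (a : G) ≠ 1 := fun h => (Finset.mem_erase.1 ha).1 (Subtype.ext h)
    rw [Fintype.card_eq_one_iff]
    have hfix : ((1 : G) : G ⧸ N) ∈ MulAction.fixedBy (G ⧸ N) a := by
      change (((a : G) * 1 : G) : G ⧸ N) = ((1 : G) : G ⧸ N)
      rw [QuotientGroup.eq, mul_one, mul_one]
      exact inv_mem (le_normalizer a.2)
    refine ⟨⟨_, hfix⟩, ?_⟩
    rintro ⟨x, hx⟩
    apply Subtype.ext
    obtain ⟨g, rfl⟩ := QuotientGroup.mk_surjective x
    have h3 : (((a : G) * g : G) : G ⧸ N) = (g : G ⧸ N) := hx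
    rw [QuotientGroup.eq] at h3
    have h4 : g⁻¹ * a * g ∈ N := by
      have := inv_mem h3
      have e : (((a : G) * g)⁻¹ * g)⁻¹ = g⁻¹ * a * g := by group
      rwa [e] at this
    have hpa : IsPGroup p (zpowers (g⁻¹ * (a : G) * g)) := by
      obtain ⟨n, hn⟩ := P.2 a
      have hn' : (a : G) ^ p ^ n = 1 := congrArg Subtype.val hn
      have h5 : (g⁻¹ * (a : G) * g) ^ p ^ n = 1 := by
        have e := conj_pow (i := p ^ n) (a := g⁻¹) (b := (a : G))
        rw [inv_inv] at e
        rw [e, hn']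
        group
      rintro ⟨y, hy⟩
      obtain ⟨j, rfl⟩ := mem_zpowers_iff.1 hy
      refine ⟨n, Subtype.ext ?_⟩
      show ((g⁻¹ * (a : G) * g) ^ j) ^ p ^ n = 1
      rw [← zpow_natCast, ← zpow_mul, mul_comm, zpow_mul, zpow_natCast, h5, one_zpow]
    have h5 := mem_of_normalizes P hpa h4
    have h6 : g ∈ N := by
      by_contra hg
      have h7 := hTI g hg
      have h8 : (a : G) ∈ (P : Subgroup G) ⊓ (MulAut.conj g • (P : Subgroup G)) := by
        rw [Subgroup.mem_inf]
        refine ⟨a.2, ?_⟩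
        rw [Subgroup.mem_pointwise_smul_iff_inv_smul_mem, ← map_inv, MulAut.smul_def,
          MulAut.conj_apply, inv_inv]
        exact h5
      rw [h7, mem_bot] at h8
      exact ha1 h8
    change (g : G ⧸ N) = ((1 : G) : G ⧸ N)
    rw [QuotientGroup.eq, mul_one]
    exact inv_mem h6
  rw [h1, Finset.sum_congr rfl h2, Finset.sum_const, Finset.card_erase_of_mem (Finset.mem_univ _),
    Finset.card_univ, smul_eq_mul, mul_one, ← Nat.card_eq_fintype_card (α := (P : Subgroup G))] at h'
  have hpos : 0 < Nat.card P := Nat.card_pos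
  have h3 : N.index + (Nat.card P - 1) + 1 = N.index + Nat.card P := by omega
  have h4 : N.index + Nat.card P ≡ 1 [MOD Nat.card P] := by
    rw [← h3, h']
    simp [Nat.ModEq]
  exact (by simp [Nat.ModEq] : N.index ≡ N.index + Nat.card P [MOD Nat.card P]).trans h4

/-- the order of a Sylow subgroup -/
theorem card_of (P : Sylow p G) {n m : ℕ} (h : Nat.card G = p ^ n * m) (hm : ¬ p ∣ m) :
    Nat.card P = p ^ n := by
  have hm0 : m ≠ 0 := by
    rintro rfl
    exact hm (dvd_zero _)
  rw [Sylow.card_eq_multiplicity, h]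
  congr 1
  rw [Nat.factorization_mul (pow_ne_zero _ hp.out.ne_zero) hm0,
    Nat.Prime.factorization_pow hp.out]
  simp [Nat.factorization_eq_zero_of_not_dvd hm]

end Group

section Tits

/-- the Tits group -/
theorem tits_false {Y : Type*} [Group Y] [Finite Y] {T M L : Subgroup Y} (hTM : T ≤ M)
    (hT : Nat.card T ∣ 225) (hM : (T.subgroupOf M).index ∣ 12) (hL : Nat.card L = 17971200)
    [Fact (Nat.Prime 5)] (Q : Sylow 5 L)
    (hTI : ∀ g : L, g ∉ normalizer ((Q : Subgroup L) : Set L) →
      (Q : Subgroup L) ⊓ (MulAut.conj g • (Q : Subgroup L)) = ⊥)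
    (hN : normalizer ((Q : Subgroup L) : Set L) = M.subgroupOf L) : False := by
  have h1 := index_modEq Q hTI
  have h2 : Nat.card Q = 25 := card_of Q (n := 2) (m := 718848) (by rw [hL]; norm_num) (by norm_num)
  rw [h2] at h1
  set N := normalizer ((Q : Subgroup L) : Set L)
  have h3 : Nat.card N * N.index = 17971200 := by rw [N.card_mul_index, hL]
  have h4 : Nat.card N ∣ 2700 := by
    have e1 : Nat.card (M.subgroupOf L) ∣ Nat.card M := by
      have e2 : Nat.card (M.subgroupOf L) = Nat.card ((M.subgroupOf L).map L.subtype) :=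
        Nat.card_congr ((M.subgroupOf L).equivMapOfInjective _ L.subtype_injective).toEquiv
      rw [e2]
      apply Subgroup.card_dvd_of_le
      rintro _ ⟨x, hx, rfl⟩
      exact hx
    have e2 : Nat.card M ∣ 2700 := by
      have e3 := (T.subgroupOf M).card_mul_index
      have e4 : Nat.card (T.subgroupOf M) = Nat.card T :=
        Nat.card_congr (Subgroup.subgroupOfEquivOfLe hTM).toEquiv
      rw [← e3, e4]
      exact Nat.mul_dvd_mul hT hM
    rw [hN]
    exact e1.trans e2
  have key : ∀ n ∈ Nat.divisors 2700, ¬ (17971200 / n) % 25 = 1 := by decide +kernel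
  apply key _ (Nat.mem_divisors.2 ⟨h4, by norm_num⟩)
  have h5 : 0 < Nat.card N := Nat.card_pos
  have h6 : 17971200 / Nat.card N = N.index := Nat.div_eq_of_eq_mul_right h5 h3.symm
  rw [h6]
  exact h1

end Tits

section Torus

variable {K : Type u} [Field K] [Fintype K] {Y : Type v} [Group Y] {T M : Subgroup Y}
  {Φ : Type w} {Ψ : Set Φ} {P : Φ → Φ → ℤ}

/-- six roots: `|T|` divides `(|K| - 1)²` -/
theorem card_T_dvd (X : Ctx K Y T M Φ Ψ P) (h6 : Nat.card Ψ = 6) :
    Nat.card T ∣ (Fintype.card K - 1) ^ 2 := by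
  classical
  obtain ⟨a, ha, b, hb, hab⟩ := X.rank
  obtain ⟨c, hc, hcP, hcχ⟩ := X.add a ha b hb hab
  have hfin : Finite Ψ := Nat.finite_of_card_ne_zero (by rw [h6]; norm_num)
  have hba : P b a = -1 := by rw [X.symm]; exact hab
  let f : Fin 6 → Ψ := ![⟨a, ha⟩, ⟨b, hb⟩, ⟨c, hc⟩, ⟨X.neg a, X.neg_mem a ha⟩,
    ⟨X.neg b, X.neg_mem b hb⟩, ⟨X.neg c, X.neg_mem c hc⟩]
  let tab : Fin 6 → ℤ × ℤ := ![(2, -1), (-1, 2), (1, 1), (-2, 1), (1, -2), (-1, -1)]
  have hg : ∀ i, (P (f i : Φ) a, P (f i : Φ) b) = tab i := by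
    have hca : P c a = 1 := by rw [hcP, X.self, hba]; norm_num
    have hcb : P c b = 1 := by rw [hcP, X.self, hab]; norm_num
    intro i
    fin_cases i
    · show (P a a, P a b) = (2, -1)
      rw [X.self, hab]
    · show (P b a, P b b) = (-1, 2)
      rw [X.self, hba]
    · show (P c a, P c b) = (1, 1)
      rw [hca, hcb]
    · show (P (X.neg a) a, P (X.neg a) b) = (-2, 1)
      rw [X.P_neg, X.P_neg, X.self, hab]; norm_num
    · show (P (X.neg b) a, P (X.neg b) b) = (1, -2)
      rw [X.P_neg, X.P_neg, X.self, hba]; norm_num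
    · show (P (X.neg c) a, P (X.neg c) b) = (-1, -1)
      rw [X.P_neg, X.P_neg, hca, hcb]
  have htab : Function.Injective tab := by decide
  have hf : Function.Injective f := by
    intro i j hij
    apply htab
    rw [← hg i, ← hg j, hij]
  have hsurj : Function.Surjective f := by
    have := Function.Injective.bijective_of_nat_card_le hf (by rw [h6]; simp)
    exact this.2
  -- the homomorphism
  let F : T →* Kˣ × Kˣ :=
    { toFun := fun t => (X.χ a t, X.χ b t)
      map_one' := by
        have e1 : X.χ a (1 * 1 : Y) = X.χ a 1 * X.χ a 1 := X.χ_mul a ha 1 T.one_mem 1 T.one_mem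
        have e2 : X.χ b (1 * 1 : Y) = X.χ b 1 * X.χ b 1 := X.χ_mul b hb 1 T.one_mem 1 T.one_mem
        rw [mul_one] at e1 e2
        show (X.χ a ((1 : T) : Y), X.χ b ((1 : T) : Y)) = (1, 1)
        rw [Subgroup.coe_one, mul_left_cancel (a := X.χ a 1) (b := X.χ a 1) (c := 1) (by
          rw [← e1, mul_one]), mul_left_cancel (a := X.χ b 1) (b := X.χ b 1) (c := 1) (by
          rw [← e2, mul_one])]
      map_mul' := fun s t => by
        show (X.χ a ((s * t : T) : Y), X.χ b ((s * t : T) : Y)) = (_, _)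
        rw [Subgroup.coe_mul, X.χ_mul a ha s s.2 t t.2, X.χ_mul b hb s s.2 t t.2] }
  have hF : Function.Injective F := by
    rw [injective_iff_map_eq_one]
    rintro ⟨t, ht⟩ h
    have h1 : X.χ a t = 1 := congrArg Prod.fst h
    have h2 : X.χ b t = 1 := congrArg Prod.snd h
    have h3 : X.χ c t = 1 := by rw [hcχ t ht, h1, h2, mul_one]
    apply Subtype.ext
    apply X.χ_inj t ht
    intro d hd
    obtain ⟨i, hi⟩ := hsurj ⟨d, hd⟩
    have hi' : (f i : Φ) = d := congrArg Subtype.val hi
    rw [← hi']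
    fin_cases i
    · exact h1
    · exact h2
    · exact h3
    · show X.χ (X.neg a) t = 1
      rw [X.χ_neg a ha t ht, h1, inv_one]
    · show X.χ (X.neg b) t = 1
      rw [X.χ_neg b hb t ht, h2, inv_one]
    · show X.χ (X.neg c) t = 1
      rw [X.χ_neg c hc t ht, h3, inv_one]
  have h7 := Subgroup.card_dvd_of_injective F hF
  rw [Nat.card_prod, Nat.card_units, Nat.card_eq_fintype_card (α := K)] at h7
  rwa [pow_two]

/-- the `l`-torsion of `T` lies in the Sylow subgroup `Q` of `L`, `Q ≤ T` -/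
theorem tor_le [Finite Y] (X : Ctx K Y T M Φ Ψ P) {L : Subgroup Y} {l : ℕ} [Fact l.Prime]
    (Q : Sylow l L) (hQT : ∀ x : L, x ∈ (Q : Subgroup L) → (x : Y) ∈ T)
    (hTL : ∀ t ∈ T, t ^ l = 1 → t ∈ L) : tor X l ≤ Nat.card Q := by
  have key : ∀ t : {t : Y // t ∈ T ∧ t ^ l = 1},
      (⟨t.1, hTL t.1 t.2.1 t.2.2⟩ : L) ∈ (Q : Subgroup L) := by
    rintro ⟨t, ht, htl⟩
    set t' : L := ⟨t, hTL t ht htl⟩ with ht'
    apply mem_of_normalizes Q
    · have h1 : t' ^ l = 1 := Subtype.ext htl
      rintro ⟨y, hy⟩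
      obtain ⟨j, rfl⟩ := mem_zpowers_iff.1 hy
      refine ⟨1, Subtype.ext ?_⟩
      show (t' ^ j) ^ l ^ 1 = 1
      rw [pow_one, ← zpow_natCast, ← zpow_mul, mul_comm, zpow_mul, zpow_natCast, h1, one_zpow]
    · rw [Subgroup.mem_normalizer_iff]
      have h2 : ∀ x : L, x ∈ (Q : Subgroup L) → t' * x * t'⁻¹ = x := by
        intro x hx
        apply Subtype.ext
        show t * (x : Y) * t⁻¹ = x
        rw [X.comm t ht x (hQT x hx), mul_inv_cancel_right]
      intro x
      constructor
      · intro hx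
        have h3 : x ∈ (Q : Subgroup L) := hx
        show t' * x * t'⁻¹ ∈ (Q : Subgroup L)
        rw [h2 x h3]
        exact h3
      · intro hx
        have h3 : t' * x * t'⁻¹ ∈ (Q : Subgroup L) := hx
        have h4 := h2 _ h3
        have h5 : t' * x * t'⁻¹ = x := by
          have h6 : t' * (t' * x * t'⁻¹) * t'⁻¹ = t' * x * t'⁻¹ := h4
          have h7 : t' * x * t'⁻¹ = x := by
            have := mul_right_cancel h6
            exact mul_left_cancel this
          exact h7
        rw [h5] at h3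
        exact h3
  refine Nat.card_le_card_of_injective (fun t => (⟨_, key t⟩ : (Q : Subgroup L))) ?_
  intro s t hst
  have h1 := congrArg (fun z : (Q : Subgroup L) => ((z : L) : Y)) hst
  exact Subtype.ext h1

end Torus

end Cfsg.Agent.H68.OT
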